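import Mathlib
import Cfsg.Agent.Lib.Helper41.SnB.Q8Defs

/-!
S2986, package [Q8-NQ] (helper23): interface of the sub-packages.  Definitions and statements
only.  Notation as in `Cfsg.Agent.Lib.Helper41.SnB.Defs` / `Q8Defs`.
-/

set_option autoImplicit false

namespace Cfsg.Agent.Lib.Helper23.SnB

open Cfsg Cfsg.Agent.Lib.Helper41.SnB

universe u

variable {G : Type u} [Group G]

/-- The abstract facts used by the non-quadratic argument: `P = O_3(G)`, `S₀` a `2`-group with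
`P S₀` normal, `X` an exceptional block with `Q = O_3(X)`, `W = Ω₁(Z(Q))`, `Z = C_W(X)`, and
`b` a `3`-element normalizing `X`, not quadratic on `Q / Z`. -/
structure NQF (P S₀ X Q W Z : Subgroup G) (b : G) : Prop where
  S2 : IsPGroup 2 ↥S₀
  syl : ∀ g : G, ∀ s ∈ S₀, ∃ c ∈ P, ∃ s' ∈ S₀, g * s * g⁻¹ = c * s'
  Pn : P.Normal
  P3 : IsPGroup 3 ↥P
  PX : P ≤ Subgroup.normalizer (X : Set G)
  XP : X ⊓ P ≤ Q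
  nQ : Subgroup.normalizer (X : Set G) ≤ Subgroup.normalizer (Q : Set G)
  nQW : Subgroup.normalizer (Q : Set G) ≤ Subgroup.normalizer (W : Set G)
  nZ : Subgroup.normalizer (X : Set G) ≤ Subgroup.normalizer (Z : Set G)
  QP : Q ≤ P
  WQ : W ≤ Q
  ZW : Z ≤ W
  Wc : ∀ w ∈ W, ∀ u ∈ Q, w * u = u * w
  comm : ∀ u ∈ Q, ∀ v ∈ Q, u * v * u⁻¹ * v⁻¹ ∈ Z
  WP : ∀ c ∈ P, ∀ w ∈ W, c * w * c⁻¹ * w⁻¹ ∈ Z
  cardZ : Nat.card ↥Z = 3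
  cardW : Nat.card ↥W = 27
  cardQ : Nat.card ↥Q = 243
  cover : ∀ Y : Subgroup G, Y ≤ Q → Nz X Y → ¬ Y ≤ W → ∀ u ∈ Q, ∃ y ∈ Y, ∃ w ∈ W, u = y * w
  bX : b ∈ Subgroup.normalizer (X : Set G)
  bp : ∃ k : ℕ, b ^ (3 ^ k) = 1
  bq : ¬ ⁅⁅Q, Subgroup.zpowers b⁆, Subgroup.zpowers b⁆ ≤ Z

/-! ### Sub-packages -/

/-- [NQ-FIT] Fitting's lemma for a coprime action on an abelian section `H / N`: an element of
`[H, S] N` fixed by `S` modulo `N` lies in `N`. -/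
def PkgFit : Prop :=
  ∀ {G : Type u} [Group G] (H N S : Subgroup G) [Finite ↥H] [Finite ↥S],
    N ≤ H → (∀ a ∈ H, ∀ b ∈ H, a * b * a⁻¹ * b⁻¹ ∈ N) →
    (∀ s ∈ S, ∀ a ∈ H, s * a * s⁻¹ ∈ H) → (∀ s ∈ S, ∀ a ∈ N, s * a * s⁻¹ ∈ N) →
    (Nat.card ↥S).Coprime (Nat.card ↥H) →
    ∀ y ∈ Subgroup.closure {g : G | ∃ s ∈ S, ∃ a ∈ H, g = s * a * s⁻¹ * a⁻¹} ⊔ N,
      (∀ s ∈ S, s * y * s⁻¹ * y⁻¹ ∈ N) → y ∈ N

/-- [NQ-QUAD] a `p`-element `b` normalizing a finite `p`-group `Q` acts quadratically on `Q / Z`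
when `Q = Y W` with `W / Z` and `Y / Z` of order `p ^ 2`, all of `Q`, `W`, `Y`, `Z` normalized by
`Q` and by `b`. -/
def PkgQuad : Prop :=
  ∀ {G : Type u} [Group G] (p : ℕ) [Fact p.Prime] (Q W Y Z : Subgroup G) [Finite ↥Q] (b : G)
    (k : ℕ), b ^ (p ^ k) = 1 → IsPGroup p ↥Q → Z ≤ W → Z ≤ Y → W ≤ Q → Y ≤ Q →
    (∀ g : G, g ∈ Q ∨ g = b → (∀ a ∈ Q, g * a * g⁻¹ ∈ Q) ∧ (∀ a ∈ W, g * a * g⁻¹ ∈ W) ∧
      (∀ a ∈ Y, g * a * g⁻¹ ∈ Y) ∧ (∀ a ∈ Z, g * a * g⁻¹ ∈ Z)) →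
    Nat.card ↥W = p ^ 2 * Nat.card ↥Z → Nat.card ↥Y = p ^ 2 * Nat.card ↥Z →
    (∀ u ∈ Q, ∃ y ∈ Y, ∃ w ∈ W, u = y * w) →
    ⁅⁅Q, Subgroup.zpowers b⁆, Subgroup.zpowers b⁆ ≤ Z

/-- [NQ-EXT] extraction of the abstract facts. -/
def PkgNQExt : Prop :=
  ∀ {G : Type u} [Group G] [Finite G] {p : ℕ} [Fact p.Prime], p = 3 →
    ∀ (S₀ X K : Subgroup G) (z b : G), SylSetup p S₀ → SBlk p X → Q8S p S₀ X K z →
      ExcS p X K z → BData p X b →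
      NQF (pCore p G) S₀ X (Qb p X) (Wb p X) (Zb p X) b

/-- [NQ-MAIN] the abstract non-quadratic argument. -/
def PkgNQMain : Prop :=
  ∀ {G : Type u} [Group G] [Finite G] (P S₀ X Q W Z : Subgroup G) (b : G),
    NQF P S₀ X Q W Z b →
    ∀ x ∈ S₀, (∀ u ∈ Q, x * u * x⁻¹ ∈ Q) → (∀ w ∈ W, x * w * x⁻¹ * w⁻¹ ∈ Z) →
      (∀ c ∈ P, ∀ u ∈ Q, (x * c * x⁻¹ * c⁻¹) * u * (x * c * x⁻¹ * c⁻¹)⁻¹ * u⁻¹ ∈ Z) →
      ∀ u ∈ Q, x * u * x⁻¹ * u⁻¹ ∈ W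

/-- [Q8-NQ] from [NQ-EXT] and [NQ-MAIN]. -/
theorem pkgNQ_of (hExt : PkgNQExt.{u}) (hMain : PkgNQMain.{u}) : PkgNQ.{u} := by
  intro G _ _ p _ p3 S₀ X K z b hS hX hQ8 hExc hb
  exact hMain (pCore p G) S₀ X (Qb p X) (Wb p X) (Zb p X) b
    (hExt p3 S₀ X K z b hS hX hQ8 hExc hb)

end Cfsg.Agent.Lib.Helper23.SnB
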