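import Mathlib
import Cfsg.Agent.Lib.Helper23.SnB.NQDefs
import Cfsg.Agent.Lib.Helper91.Coprime2

/-!
S2986, package [Q8-NQ], sub-package [NQ-MAIN] (helper23): the abstract non-quadratic argument,
from [NQ-FIT] and [NQ-QUAD].
-/

set_option autoImplicit false

namespace Cfsg.Agent.Lib.Helper23.SnB

open Cfsg Cfsg.Agent.Lib.Helper41.SnB

open scoped commutatorElement

universe u

variable {G : Type u} [Group G]

theorem conj_mem_of_normalizer {H : Subgroup G} {g : G}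
    (hg : g ∈ Subgroup.normalizer (H : Set G)) {a : G} (ha : a ∈ H) : g * a * g⁻¹ ∈ H :=
  (Subgroup.mem_normalizer_iff.1 hg a).1 ha

theorem conj_mem_of_normalizer' {H : Subgroup G} {g : G}
    (hg : g ∈ Subgroup.normalizer (H : Set G)) {a : G} (ha : a ∈ H) : g⁻¹ * a * g ∈ H := by
  have := conj_mem_of_normalizer (Subgroup.inv_mem _ hg) ha
  simpa using this

theorem mem_normalizer_of_conj_mem [Finite G] {H : Subgroup G} {g : G}
    (h : ∀ a ∈ H, g * a * g⁻¹ ∈ H) : g ∈ Subgroup.normalizer (H : Set G) := by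
  rw [Subgroup.mem_normalizer_iff]
  intro a
  refine ⟨h a, fun ha => ?_⟩
  let φ : ↥H → ↥H := fun a => ⟨g * a * g⁻¹, h a a.2⟩
  have hinj : Function.Injective φ := by
    intro a b hab
    have : g * (a : G) * g⁻¹ = g * (b : G) * g⁻¹ := congrArg Subtype.val hab
    exact Subtype.ext (by simpa using this)
  obtain ⟨a', ha'⟩ := (Finite.injective_iff_surjective.1 hinj) ⟨g * a * g⁻¹, ha⟩
  have h1 : g * (a' : G) * g⁻¹ = g * a * g⁻¹ := congrArg Subtype.val ha'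
  have h2 : (a' : G) = a := by simpa using h1
  rw [← h2]; exact a'.2

/-- Elements normalizing `W` and `Z` and acting trivially on `W / Z`. -/
def trivOn (W Z : Subgroup G) : Subgroup G where
  carrier := {g | g ∈ Subgroup.normalizer (W : Set G) ∧ g ∈ Subgroup.normalizer (Z : Set G) ∧
    ∀ w ∈ W, g * w * g⁻¹ * w⁻¹ ∈ Z}
  one_mem' := ⟨Subgroup.one_mem _, Subgroup.one_mem _, fun w _ => by simp⟩
  mul_mem' := by
    rintro g h ⟨hg1, hg2, hg3⟩ ⟨hh1, hh2, hh3⟩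
    refine ⟨Subgroup.mul_mem _ hg1 hh1, Subgroup.mul_mem _ hg2 hh2, fun w hw => ?_⟩
    have e : g * h * w * (g * h)⁻¹ * w⁻¹ =
        g * (h * w * h⁻¹ * w⁻¹) * g⁻¹ * (g * w * g⁻¹ * w⁻¹) := by group
    rw [e]
    exact Z.mul_mem (conj_mem_of_normalizer hg2 (hh3 w hw)) (hg3 w hw)
  inv_mem' := by
    rintro g ⟨hg1, hg2, hg3⟩
    refine ⟨Subgroup.inv_mem _ hg1, Subgroup.inv_mem _ hg2, fun w hw => ?_⟩
    have hw' : g⁻¹ * w * g ∈ W := conj_mem_of_normalizer' hg1 hw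
    have h1 := Z.inv_mem (hg3 _ hw')
    have e : (g * (g⁻¹ * w * g) * g⁻¹ * (g⁻¹ * w * g)⁻¹)⁻¹ = g⁻¹ * w * g⁻¹⁻¹ * w⁻¹ := by group
    rwa [e] at h1

theorem trivOn_conj {W Z : Subgroup G} {g s : G} (hgW : g ∈ Subgroup.normalizer (W : Set G))
    (hgZ : g ∈ Subgroup.normalizer (Z : Set G)) (hs : s ∈ trivOn W Z) :
    g * s * g⁻¹ ∈ trivOn W Z := by
  obtain ⟨hs1, hs2, hs3⟩ := hs
  refine ⟨Subgroup.mul_mem _ (Subgroup.mul_mem _ hgW hs1) (Subgroup.inv_mem _ hgW),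
    Subgroup.mul_mem _ (Subgroup.mul_mem _ hgZ hs2) (Subgroup.inv_mem _ hgZ), fun w hw => ?_⟩
  have hw' : g⁻¹ * w * g ∈ W := conj_mem_of_normalizer' hgW hw
  have e : g * s * g⁻¹ * w * (g * s * g⁻¹)⁻¹ * w⁻¹ =
      g * (s * (g⁻¹ * w * g) * s⁻¹ * (g⁻¹ * w * g)⁻¹) * g⁻¹ := by group
  rw [e]
  exact conj_mem_of_normalizer hgZ (hs3 _ hw')

/-- `{u ∈ Q | [u, c] ∈ N for all c ∈ C}` for `N` central in `Q`. -/
def commSub (Q N : Subgroup G) (C : Set G) (hN : ∀ n ∈ N, ∀ u ∈ Q, n * u = u * n) :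
    Subgroup G where
  carrier := {u | u ∈ Q ∧ ∀ c ∈ C, u * c * u⁻¹ * c⁻¹ ∈ N}
  one_mem' := ⟨Q.one_mem, fun c _ => by simp⟩
  mul_mem' := by
    rintro u v ⟨hu, hu'⟩ ⟨hv, hv'⟩
    refine ⟨Q.mul_mem hu hv, fun c hc => ?_⟩
    have e : u * v * c * (u * v)⁻¹ * c⁻¹ =
        u * (v * c * v⁻¹ * c⁻¹) * u⁻¹ * (u * c * u⁻¹ * c⁻¹) := by group
    have e2 : u * (v * c * v⁻¹ * c⁻¹) * u⁻¹ = v * c * v⁻¹ * c⁻¹ := by
      rw [← hN _ (hv' c hc) u hu]; group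
    rw [e, e2]
    exact N.mul_mem (hv' c hc) (hu' c hc)
  inv_mem' := by
    rintro u ⟨hu, hu'⟩
    refine ⟨Q.inv_mem hu, fun c hc => ?_⟩
    have h1 := N.inv_mem (hu' c hc)
    have e : u⁻¹ * c * u⁻¹⁻¹ * c⁻¹ = u⁻¹ * (u * c * u⁻¹ * c⁻¹)⁻¹ * u := by group
    have e2 : u⁻¹ * (u * c * u⁻¹ * c⁻¹)⁻¹ * u = (u * c * u⁻¹ * c⁻¹)⁻¹ := by
      have h2 := hN _ h1 u hu
      rw [mul_assoc, h2]; group
    rw [e, e2]; exact h1

/-- The series `Q, [Q, P], [Q, P, P], ...`. -/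
def lcsQ (P Q : Subgroup G) : ℕ → Subgroup G
  | 0 => Q
  | n + 1 => ⁅lcsQ P Q n, P⁆

/-- [FIX] a nilpotent group `P` normalizing `Q ≤ P`, `Q ≰ W`, centralizes an element of `Q`
outside `W` modulo `W`. -/
theorem exists_fixed_mod (P Q W : Subgroup G) [hP : Group.IsNilpotent ↥P] (hQP : Q ≤ P)
    (hn : ∀ c ∈ P, ∀ u ∈ Q, c * u * c⁻¹ ∈ Q) (hQW : ¬ Q ≤ W) :
    ∃ u ∈ Q, u ∉ W ∧ ∀ c ∈ P, u * c * u⁻¹ * c⁻¹ ∈ W := by
  obtain ⟨n, hn0⟩ := (Subgroup.isNilpotent_iff_lowerCentralSeries P).1 hP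
  obtain ⟨Qs, hQs⟩ : ∃ Qs : ℕ → Subgroup G, Qs = lcsQ P Q := ⟨_, rfl⟩
  have hQs0 : Qs 0 = Q := by rw [hQs]; rfl
  have hQsS : ∀ i, Qs (i + 1) = ⁅Qs i, P⁆ := fun i => by rw [hQs]; rfl
  have h1 : ∀ i, Qs i ≤ P.lowerCentralSeries i := by
    intro i
    induction i with
    | zero => rw [hQs0]; exact hQP
    | succ i ih =>
      rw [hQsS, Subgroup.lowerCentralSeries_succ]
      exact Subgroup.commutator_mono ih le_rfl
  have h2 : ∀ i, Qs i ≤ Q := by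
    intro i
    induction i with
    | zero => rw [hQs0]
    | succ i ih =>
      rw [hQsS, Subgroup.commutator_le]
      intro a ha c hc
      have e : ⁅a, c⁆ = a * (c * a⁻¹ * c⁻¹) := by
        rw [commutatorElement_def]; group
      rw [e]
      exact Q.mul_mem (ih ha) (hn c hc _ (Q.inv_mem (ih ha)))
  have hn1 : Qs n ≤ W := by
    have h3 := h1 n
    rw [hn0, le_bot_iff] at h3
    rw [h3]; exact bot_le
  have hstep : ∀ m, Qs m ≤ W → ∃ j, ¬ Qs j ≤ W ∧ Qs (j + 1) ≤ W := by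
    intro m
    induction m with
    | zero => intro h; rw [hQs0] at h; exact absurd h hQW
    | succ m ih =>
      intro h
      by_cases hm : Qs m ≤ W
      · exact ih hm
      · exact ⟨m, hm, h⟩
  obtain ⟨j, hj', hi₀⟩ := hstep n hn1
  obtain ⟨u, hu, huW⟩ := SetLike.not_le_iff_exists.1 hj'
  refine ⟨u, h2 j hu, huW, fun c hc => ?_⟩
  have h4 : ⁅u, c⁆ ∈ Qs (j + 1) := by
    rw [hQsS]; exact Subgroup.commutator_mem_commutator hu hc
  have h5 := hi₀ h4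
  rwa [commutatorElement_def] at h5

theorem key_id (x u c u' d a a' : G) (hu' : u' = x * u * x⁻¹) (hd : d = x * c * x⁻¹ * c⁻¹)
    (ha : a = u * c * u⁻¹ * c⁻¹) (ha' : a' = u' * c * u'⁻¹ * c⁻¹) :
    a' * a⁻¹ = ((d * u' * d⁻¹ * u'⁻¹)⁻¹ * (d * a' * d⁻¹ * a'⁻¹))⁻¹ * (x * a * x⁻¹ * a⁻¹) := by
  subst ha' ha hd hu'
  group

theorem conj_comm_id0 (g s a : G) : g * (s * a * s⁻¹ * a⁻¹) * g⁻¹ =
    (g * s * g⁻¹) * (g * a * g⁻¹) * (g * s * g⁻¹)⁻¹ * (g * a * g⁻¹)⁻¹ := by group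

theorem conj_comm_id (c s a : G) : (c * s) * a * (c * s)⁻¹ * a⁻¹ =
    ((s * a * s⁻¹ * a⁻¹) * c * (s * a * s⁻¹ * a⁻¹)⁻¹ * c⁻¹)⁻¹ * (s * a * s⁻¹ * a⁻¹) *
      (a * c * a⁻¹ * c⁻¹)⁻¹ := by group

/-- [NQ-MAIN] from [NQ-FIT] and [NQ-QUAD]. -/
theorem pkgNQMain_of (hFit : PkgFit.{u}) (hQuad : PkgQuad.{u}) : PkgNQMain.{u} := by
  intro G _ _ P S₀ X Q W Z b F x hxS hxQ hxW hxd
  by_contra hcon
  push Not at hcon
  obtain ⟨u₀, hu₀Q, hu₀⟩ := hcon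
  have : Fact (Nat.Prime 3) := ⟨by norm_num⟩
  have : Fact (Nat.Prime 2) := ⟨Nat.prime_two⟩
  have hPn : P.Normal := F.Pn
  have hXN : X ≤ Subgroup.normalizer (X : Set G) := Subgroup.le_normalizer
  have nQ : ∀ g ∈ Subgroup.normalizer (X : Set G), g ∈ Subgroup.normalizer (Q : Set G) :=
    fun g hg => F.nQ hg
  have nW : ∀ g ∈ Subgroup.normalizer (X : Set G), g ∈ Subgroup.normalizer (W : Set G) :=
    fun g hg => F.nQW (F.nQ hg)
  have nZ : ∀ g ∈ Subgroup.normalizer (X : Set G), g ∈ Subgroup.normalizer (Z : Set G) :=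
    fun g hg => F.nZ hg
  have hZQ : Z ≤ Q := F.ZW.trans F.WQ
  have hZc : ∀ n ∈ Z, ∀ u ∈ Q, n * u = u * n := fun n hn u hu => F.Wc n (F.ZW hn) u hu
  have hPT : ∀ c ∈ P, c ∈ trivOn W Z :=
    fun c hc => ⟨nW c (F.PX hc), nZ c (F.PX hc), F.WP c hc⟩
  -- the element `x`
  have hxNQ : x ∈ Subgroup.normalizer (Q : Set G) := mem_normalizer_of_conj_mem hxQ
  have hxNW : x ∈ Subgroup.normalizer (W : Set G) := F.nQW hxNQ
  have hxNZ : x ∈ Subgroup.normalizer (Z : Set G) := by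
    apply mem_normalizer_of_conj_mem
    intro ζ hζ
    have h1 := hxW ζ (F.ZW hζ)
    have e : x * ζ * x⁻¹ = x * ζ * x⁻¹ * ζ⁻¹ * ζ := by group
    rw [e]; exact Z.mul_mem h1 hζ
  have hxT : x ∈ trivOn W Z := ⟨hxNW, hxNZ, hxW⟩
  -- Step 1
  have hQW : ¬ Q ≤ W := by
    intro h
    have h1 := Subgroup.card_le_of_le h
    rw [F.cardQ, F.cardW] at h1; omega
  have : Group.IsNilpotent ↥P := F.P3.isNilpotent
  have hFP : ∀ u ∈ Q, ∀ c ∈ P, u * c * u⁻¹ * c⁻¹ ∈ W := by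
    obtain ⟨u₁, hu₁Q, hu₁W, hu₁⟩ := exists_fixed_mod P Q W F.QP
      (fun c hc u hu => conj_mem_of_normalizer (nQ c (F.PX hc)) hu) hQW
    have hUQ : commSub Q W (P : Set G) F.Wc ≤ Q := fun u hu => hu.1
    have hWU : W ≤ commSub Q W (P : Set G) F.Wc := by
      intro w hw
      refine ⟨F.WQ hw, fun c hc => ?_⟩
      have e : w * c * w⁻¹ * c⁻¹ = w * (c * w⁻¹ * c⁻¹) := by group
      rw [e]
      exact W.mul_mem hw (conj_mem_of_normalizer (nW c (F.PX hc)) (W.inv_mem hw))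
    have hUX : Nz X (commSub Q W (P : Set G) F.Wc) := by
      intro e he u hu
      refine ⟨conj_mem_of_normalizer (nQ e (hXN he)) hu.1, fun c hc => ?_⟩
      have hc' : e⁻¹ * c * e ∈ P := by
        have h1 := hPn.conj_mem c hc e⁻¹
        simpa using h1
      have e1 : e * u * e⁻¹ * c * (e * u * e⁻¹)⁻¹ * c⁻¹ =
          e * (u * (e⁻¹ * c * e) * u⁻¹ * (e⁻¹ * c * e)⁻¹) * e⁻¹ := by group
      rw [e1]
      exact conj_mem_of_normalizer (nW e (hXN he)) (hu.2 _ hc')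
    have hUW : ¬ commSub Q W (P : Set G) F.Wc ≤ W := fun h => hu₁W (h ⟨hu₁Q, hu₁⟩)
    intro u hu c hc
    obtain ⟨y, hy, w, hw, rfl⟩ := F.cover _ hUQ hUX hUW u hu
    exact (Subgroup.mul_mem _ hy (hWU hw)).2 c hc
  -- Step 2
  have hT : ∀ c ∈ P, ∀ u ∈ Q, u * c * u⁻¹ * c⁻¹ ∈ Z := by
    intro c hc
    have hUQ : commSub Q Z ({c} : Set G) hZc ≤ Q := fun u hu => hu.1
    have hWU : W ≤ commSub Q Z ({c} : Set G) hZc := by
      intro w hw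
      refine ⟨F.WQ hw, fun c' hc' => ?_⟩
      rw [Set.mem_singleton_iff] at hc'
      rw [hc']
      have e : w * c * w⁻¹ * c⁻¹ = (c * w * c⁻¹ * w⁻¹)⁻¹ := by group
      rw [e]
      exact Z.inv_mem (F.WP c hc w hw)
    have hUX : Nz X (commSub Q Z ({c} : Set G) hZc) := by
      intro e he u hu
      refine ⟨conj_mem_of_normalizer (nQ e (hXN he)) hu.1, fun c' hc' => ?_⟩
      rw [Set.mem_singleton_iff] at hc'
      rw [hc']
      have hq : c⁻¹ * e⁻¹ * c * e ∈ Q := by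
        apply F.XP
        refine ⟨?_, ?_⟩
        · have h1 : c⁻¹ * e⁻¹ * c⁻¹⁻¹ ∈ X :=
            conj_mem_of_normalizer (Subgroup.inv_mem _ (F.PX hc)) (X.inv_mem he)
          have e1 : c⁻¹ * e⁻¹ * c * e = c⁻¹ * e⁻¹ * c⁻¹⁻¹ * e := by group
          rw [e1]; exact X.mul_mem h1 he
        · have h1 : e⁻¹ * c * e⁻¹⁻¹ ∈ P := hPn.conj_mem c hc e⁻¹
          have e1 : c⁻¹ * e⁻¹ * c * e = c⁻¹ * (e⁻¹ * c * e⁻¹⁻¹) := by group
          rw [e1]; exact P.mul_mem (P.inv_mem hc) h1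
      have hu2 := hu.2 c rfl
      have hcomm := F.comm u hu.1 _ hq
      have e1 : e * u * e⁻¹ * c * (e * u * e⁻¹)⁻¹ * c⁻¹ =
          e * ((u * c * u⁻¹ * c⁻¹) * (c * (u * (c⁻¹ * e⁻¹ * c * e) * u⁻¹ *
            (c⁻¹ * e⁻¹ * c * e)⁻¹) * c⁻¹)) * e⁻¹ := by group
      rw [e1]
      exact conj_mem_of_normalizer (nZ e (hXN he))
        (Z.mul_mem hu2 (conj_mem_of_normalizer (nZ c (F.PX hc)) hcomm))
    by_cases hUW : commSub Q Z ({c} : Set G) hZc ≤ W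
    · exfalso
      apply hu₀
      apply hUW
      obtain ⟨u', hu'⟩ : ∃ u', u' = x * u₀ * x⁻¹ := ⟨_, rfl⟩
      obtain ⟨d, hd⟩ : ∃ d, d = x * c * x⁻¹ * c⁻¹ := ⟨_, rfl⟩
      obtain ⟨a, ha⟩ : ∃ a, a = u₀ * c * u₀⁻¹ * c⁻¹ := ⟨_, rfl⟩
      obtain ⟨a', ha'⟩ : ∃ a', a' = u' * c * u'⁻¹ * c⁻¹ := ⟨_, rfl⟩
      have hu'Q : u' ∈ Q := by rw [hu']; exact hxQ u₀ hu₀Q
      have haW : a ∈ W := by rw [ha]; exact hFP u₀ hu₀Q c hc
      have ha'W : a' ∈ W := by rw [ha']; exact hFP u' hu'Q c hc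
      have h1 : d * u' * d⁻¹ * u'⁻¹ ∈ Z := by rw [hd]; exact hxd c hc u' hu'Q
      have h2 : d * a' * d⁻¹ * a'⁻¹ ∈ Z := by rw [hd]; exact hxd c hc a' (F.WQ ha'W)
      have h3 : x * a * x⁻¹ * a⁻¹ ∈ Z := hxW a haW
      have hkey : a' * a⁻¹ ∈ Z := by
        rw [key_id x u₀ c u' d a a' hu' hd ha ha']
        exact Z.mul_mem (Z.inv_mem (Z.mul_mem (Z.inv_mem h1) h2)) h3
      rw [← hu']
      refine ⟨Q.mul_mem hu'Q (Q.inv_mem hu₀Q), fun c' hc' => ?_⟩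
      rw [Set.mem_singleton_iff] at hc'
      rw [hc']
      have e1 : u' * u₀⁻¹ * c * (u' * u₀⁻¹)⁻¹ * c⁻¹ = u' * (u₀⁻¹ * a⁻¹ * u₀) * u'⁻¹ * a' := by
        rw [ha, ha']; group
      have e2 : u₀⁻¹ * a⁻¹ * u₀ = a⁻¹ := by
        have h4 := F.Wc a⁻¹ (W.inv_mem haW) u₀ hu₀Q
        rw [mul_assoc, h4]; group
      have e3 : u' * a⁻¹ * u'⁻¹ = a⁻¹ := by
        have h4 := F.Wc a⁻¹ (W.inv_mem haW) u' hu'Q
        rw [← h4]; group
      have e4 : a⁻¹ * a' = a' * a⁻¹ := (F.Wc a' ha'W a⁻¹ (Q.inv_mem (F.WQ haW))).symm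
      rw [e1, e2, e3, e4]; exact hkey
    · intro u hu
      obtain ⟨y, hy, w, hw, rfl⟩ := F.cover _ hUQ hUX hUW u hu
      exact (Subgroup.mul_mem _ hy (hWU hw)).2 c rfl
  -- Step 3
  obtain ⟨Sg, hSg⟩ : ∃ Sg : Subgroup G,
      Sg = S₀ ⊓ Subgroup.normalizer (Q : Set G) ⊓ trivOn W Z := ⟨_, rfl⟩
  have hSgS : ∀ s ∈ Sg, s ∈ S₀ := fun s hs => by rw [hSg] at hs; exact hs.1.1
  have hSgQ : ∀ s ∈ Sg, s ∈ Subgroup.normalizer (Q : Set G) :=
    fun s hs => by rw [hSg] at hs; exact hs.1.2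
  have hSgT : ∀ s ∈ Sg, s ∈ trivOn W Z := fun s hs => by rw [hSg] at hs; exact hs.2
  have hSgI : ∀ s, s ∈ S₀ → s ∈ Subgroup.normalizer (Q : Set G) → s ∈ trivOn W Z → s ∈ Sg :=
    fun s h1 h2 h3 => by rw [hSg]; exact ⟨⟨h1, h2⟩, h3⟩
  have hxSg : x ∈ Sg := hSgI x hxS hxNQ hxT
  obtain ⟨gens, hgens⟩ : ∃ gens : Set G,
      gens = {g : G | ∃ s ∈ Sg, ∃ a ∈ Q, g = s * a * s⁻¹ * a⁻¹} := ⟨_, rfl⟩
  have hgensI : ∀ s ∈ Sg, ∀ a ∈ Q, s * a * s⁻¹ * a⁻¹ ∈ gens :=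
    fun s hs a ha => by rw [hgens]; exact ⟨s, hs, a, ha, rfl⟩
  obtain ⟨Y, hY⟩ : ∃ Y : Subgroup G, Y = Subgroup.closure gens ⊔ Z := ⟨_, rfl⟩
  have hgensQ : gens ⊆ (Q : Set G) := by
    rw [hgens]
    rintro g ⟨s, hs, a, ha, rfl⟩
    exact Q.mul_mem (conj_mem_of_normalizer (hSgQ s hs) ha) (Q.inv_mem ha)
  have hYQ : Y ≤ Q := by
    rw [hY]; exact sup_le ((Subgroup.closure_le Q).2 hgensQ) hZQ
  have hZY : Z ≤ Y := by rw [hY]; exact le_sup_right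
  have hgensY : ∀ g ∈ gens, g ∈ Y := fun g hg => by
    rw [hY]; exact Subgroup.mem_sup_left (Subgroup.subset_closure hg)
  have hYn : ∀ g ∈ Subgroup.normalizer (X : Set G), ∀ y ∈ Y, g * y * g⁻¹ ∈ Y := by
    intro g hg
    have hle : Y ≤ Y.comap (MulAut.conj g).toMonoidHom := by
      nth_rewrite 1 [hY]
      refine sup_le ((Subgroup.closure_le _).2 ?_) ?_
      · intro y hy
        rw [hgens] at hy
        obtain ⟨s, hs, a, ha, rfl⟩ := hy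
        obtain ⟨c, hc, s', hs', hgs⟩ := F.syl g s (hSgS s hs)
        have hs'eq : s' = c⁻¹ * (g * s * g⁻¹) := by rw [hgs]; group
        have hs'Sg : s' ∈ Sg := by
          apply hSgI s' hs'
          · rw [hs'eq]
            exact Subgroup.mul_mem _ (Subgroup.inv_mem _ (nQ c (F.PX hc)))
              (Subgroup.mul_mem _ (Subgroup.mul_mem _ (nQ g hg) (hSgQ s hs))
                (Subgroup.inv_mem _ (nQ g hg)))
          · rw [hs'eq]
            exact Subgroup.mul_mem _ (Subgroup.inv_mem _ (hPT c hc))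
              (trivOn_conj (nW g hg) (nZ g hg) (hSgT s hs))
        have ha' : g * a * g⁻¹ ∈ Q := conj_mem_of_normalizer (nQ g hg) ha
        have hv := hgensI s' hs'Sg _ ha'
        have hvQ := hgensQ hv
        have h1 := hT c hc _ hvQ
        have h2 := hT c hc _ ha'
        show g * (s * a * s⁻¹ * a⁻¹) * g⁻¹ ∈ Y
        rw [conj_comm_id0, hgs, conj_comm_id]
        exact Y.mul_mem (Y.mul_mem (hZY (Z.inv_mem h1)) (hgensY _ hv)) (hZY (Z.inv_mem h2))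
      · intro ζ hζ
        show g * ζ * g⁻¹ ∈ Y
        exact hZY (conj_mem_of_normalizer (nZ g hg) hζ)
    intro y hy
    exact hle hy
  have hSg2 : IsPGroup 2 ↥Sg := F.S2.to_le (fun s hs => hSgS s hs)
  have hcop : (Nat.card ↥Sg).Coprime (Nat.card ↥Q) := by
    obtain ⟨n, hn⟩ := (IsPGroup.iff_card).1 hSg2
    rw [hn, F.cardQ]
    exact Nat.Coprime.pow_left n (by norm_num)
  have hYW : ∀ y ∈ Y, y ∈ W → y ∈ Z := by
    intro y hy hyW
    rw [hY, hgens] at hy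
    exact hFit Q Z Sg hZQ F.comm (fun s hs a ha => conj_mem_of_normalizer (hSgQ s hs) ha)
      (fun s hs a ha => conj_mem_of_normalizer (hSgT s hs).2.1 ha) hcop y hy
      (fun s hs => (hSgT s hs).2.2 y hyW)
  have hYnW : ¬ Y ≤ W := fun h => hu₀ (h (hgensY _ (hgensI x hxSg u₀ hu₀Q)))
  have hcov := F.cover Y hYQ (fun e he y hy => hYn e (hXN he) y hy) hYnW
  have hcardY : Nat.card ↥Y = 27 := by
    have hQn : Y ≤ Subgroup.normalizer (W : Set G) :=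
      fun y hy => F.nQW (Subgroup.le_normalizer (hYQ hy))
    have h := Cfsg.Agent.Lib.Helper91.card_sup_mul_card_inf_of_le_normalizer W Y hQn
    have h1 : W ⊔ Y = Q := by
      apply le_antisymm (sup_le F.WQ hYQ)
      intro u hu
      obtain ⟨y, hy, w, hw, rfl⟩ := hcov u hu
      exact Subgroup.mul_mem _ (Subgroup.mem_sup_right hy) (Subgroup.mem_sup_left hw)
    have h2 : W ⊓ Y = Z := by
      apply le_antisymm
      · intro y hy; exact hYW y hy.2 hy.1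
      · exact le_inf F.ZW hZY
    rw [h1, h2, F.cardQ, F.cardZ, F.cardW] at h
    omega
  -- Step 4
  obtain ⟨k, hk⟩ := F.bp
  have hbN := F.bX
  apply F.bq
  refine hQuad 3 Q W Y Z b k hk (F.P3.to_le F.QP) F.ZW hZY F.WQ hYQ ?_
    (by simp [F.cardW, F.cardZ]) (by simp [hcardY, F.cardZ]) hcov
  rintro g (hg | hg)
  · refine ⟨fun a ha => Q.mul_mem (Q.mul_mem hg ha) (Q.inv_mem hg), fun a ha => ?_,
      fun a ha => ?_, fun a ha => ?_⟩
    · have h1 := F.Wc a ha g hg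
      have e : g * a * g⁻¹ = a := by rw [← h1]; group
      rw [e]; exact ha
    · have e : g * a * g⁻¹ = g * a * g⁻¹ * a⁻¹ * a := by group
      rw [e]; exact Y.mul_mem (hZY (F.comm g hg a (hYQ ha))) ha
    · have h1 := hZc a ha g hg
      have e : g * a * g⁻¹ = a := by rw [← h1]; group
      rw [e]; exact ha
  · rw [hg]
    exact ⟨fun a ha => conj_mem_of_normalizer (nQ b hbN) ha,
      fun a ha => conj_mem_of_normalizer (nW b hbN) ha, fun a ha => hYn b hbN a ha,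
      fun a ha => conj_mem_of_normalizer (nZ b hbN) ha⟩

end Cfsg.Agent.Lib.Helper23.SnB
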