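import Mathlib
import Cfsg.Agent.Lib.Helper23.SnB.NQMain
import Cfsg.Agent.Lib.Helper24.SnB.NQExt
import Cfsg.Agent.Lib.Helper34.SnB.NQFit
import Cfsg.Agent.Lib.Helper1.SnB.NQQuad

/-!
S2986, package [Q8-NQ] (helper23): assembly of the non-quadratic argument from its four
sub-packages [NQ-EXT] (helper24), [NQ-MAIN] (helper23), [NQ-FIT] (helper34), [NQ-QUAD] (helper1).
-/

set_option autoImplicit false

namespace Cfsg.Agent.Lib.Helper23.SnB

open Cfsg Cfsg.Agent.Lib.Helper41.SnB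

universe u

/-- [Q8-NQ] the non-quadratic argument. -/
theorem pkgNQ : PkgNQ.{u} :=
  pkgNQ_of Cfsg.Agent.Lib.Helper24.SnB.pkgNQExt
    (pkgNQMain_of Cfsg.Agent.Lib.Helper34.SnB.pkgFit Cfsg.Agent.Lib.Helper1.SnB.pkgQuad)

end Cfsg.Agent.Lib.Helper23.SnB
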