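import Mathlib
import Cfsg.Agent.Lib.Helper83.SnB.Q8MDefs
import Cfsg.Agent.Lib.Helper23.SnB.NQMain

/-!
S2986, package [Q8-M], sub-package [M-OXXs] (helper23): orthogonal `A`'s, both blocks exceptional,
`Q_E V = Q_F V`: impossible.
-/

set_option autoImplicit false

namespace Cfsg.Agent.Lib.Helper23.SnB

open Cfsg Cfsg.Agent.Lib.Helper41.SnB Cfsg.Agent.Lib.Helper34.SnB Cfsg.Agent.Lib.Helper83.SnB

open scoped commutatorElement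

universe u

variable {G : Type u} [Group G]

/-- Conjugation by `g` preserves `A ⊔ B` if it preserves `A` and `B`. -/
theorem sup_conj_mem' {A B : Subgroup G} {g : G} (hA : ∀ a ∈ A, g * a * g⁻¹ ∈ A)
    (hB : ∀ b ∈ B, g * b * g⁻¹ ∈ B) : ∀ m ∈ A ⊔ B, g * m * g⁻¹ ∈ A ⊔ B := by
  have hle : A ⊔ B ≤ (A ⊔ B).comap (MulAut.conj g).toMonoidHom := by
    refine sup_le ?_ ?_
    · intro a ha
      show g * a * g⁻¹ ∈ A ⊔ B
      exact Subgroup.mem_sup_left (hA a ha)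
    · intro b hb
      show g * b * g⁻¹ ∈ A ⊔ B
      exact Subgroup.mem_sup_right (hB b hb)
  intro m hm
  exact hle hm

/-- The product of two elements inverting `M` modulo a normal subgroup `V` is trivial on `M`
modulo `V`. -/
theorem triv_of_inv_inv {M V : Subgroup G} [hV : V.Normal] {g₁ g₂ : G}
    (h2M : ∀ m ∈ M, g₂ * m * g₂⁻¹ ∈ M)
    (h1 : ∀ m ∈ M, g₁ * m * g₁⁻¹ * m ∈ V) (h2 : ∀ m ∈ M, g₂ * m * g₂⁻¹ * m ∈ V) :
    ∀ m ∈ M, (g₁ * g₂) * m * (g₁ * g₂)⁻¹ * m⁻¹ ∈ V := by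
  intro m hm
  have hm' := h2M m hm
  have r1 := h1 _ hm'
  have r2 := h2 m hm
  have r3 : m * (g₂ * m * g₂⁻¹ * m) * m⁻¹ ∈ V := hV.conj_mem _ r2 m
  have e : g₁ * g₂ * m * (g₁ * g₂)⁻¹ * m⁻¹ =
      (g₁ * (g₂ * m * g₂⁻¹) * g₁⁻¹ * (g₂ * m * g₂⁻¹)) * (m * (g₂ * m * g₂⁻¹ * m) * m⁻¹)⁻¹ := by
    group
  rw [e]
  exact V.mul_mem r1 (V.inv_mem r3)

/-- Commutators modulo a subgroup `V` central in `P`. -/
theorem comm_central {P V : Subgroup G} (hVc : ∀ v ∈ V, ∀ c ∈ P, v * c = c * v)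
    {y₁ y₂ v₁ v₂ : G} (hy₁ : y₁ ∈ P) (hy₂ : y₂ ∈ P) (hv₁ : v₁ ∈ V) (hv₂ : v₂ ∈ V)
    (hv₂P : v₂ ∈ P) :
    (y₁ * v₁) * (y₂ * v₂) * (y₁ * v₁)⁻¹ * (y₂ * v₂)⁻¹ = y₁ * y₂ * y₁⁻¹ * y₂⁻¹ := by
  have k1 : v₁ * (y₂ * v₂) * v₁⁻¹ = y₂ * v₂ := by
    rw [hVc v₁ hv₁ (y₂ * v₂) (P.mul_mem hy₂ hv₂P)]; group
  have k2 : y₁ * v₂ * y₁⁻¹ = v₂ := by
    rw [← hVc v₂ hv₂ y₁ hy₁]; group
  have e : (y₁ * v₁) * (y₂ * v₂) * (y₁ * v₁)⁻¹ * (y₂ * v₂)⁻¹ =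
      y₁ * (v₁ * (y₂ * v₂) * v₁⁻¹) * y₁⁻¹ * (y₂ * v₂)⁻¹ := by group
  rw [e, k1]
  have e' : y₁ * (y₂ * v₂) * y₁⁻¹ * (y₂ * v₂)⁻¹ =
      y₁ * y₂ * y₁⁻¹ * (y₁ * v₂ * y₁⁻¹) * v₂⁻¹ * y₂⁻¹ := by group
  rw [e', k2]
  group

/-- The involution `z` of an exceptional block inverts `Q V / V`. -/
theorem inv_mod_V {p : ℕ} {S₀ X K : Subgroup G} {z : G} (gf : GF p S₀) (o : OB p S₀ X K z)
    (x : XB p S₀ X K z) [hVn : (Vb p G).Normal] :
    ∀ m ∈ Qb p X ⊔ Vb p G, z * m * z⁻¹ * m ∈ Vb p G := by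
  intro m hm
  obtain ⟨u, hu, v, hv, rfl⟩ := Subgroup.mem_sup_of_normal_right.1 hm
  have hw : z * u * z⁻¹ * u ∈ Vb p G := x.WV (x.exc.invQ u hu)
  have hv' : z * v * z⁻¹ ∈ Vb p G := gf.Vn z v hv
  have huP : u ∈ pCore p G := o.sb.QP hu
  have hcomm : (z * v * z⁻¹) * u = u * (z * v * z⁻¹) := gf.Vc _ hv' u huP
  have e : z * (u * v) * z⁻¹ * (u * v) =
      (z * u * z⁻¹ * u) * (u⁻¹ * ((z * v * z⁻¹) * u)) * v := by group
  rw [e, hcomm]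
  have e2 : u⁻¹ * (u * (z * v * z⁻¹)) = z * v * z⁻¹ := by group
  rw [e2]
  exact (Vb p G).mul_mem ((Vb p G).mul_mem hw hv') hv

/-- [M-OXXs] orthogonal `A`'s, both exceptional, `Q_E V = Q_F V`: impossible. -/
theorem pkgOXXs : PkgOXXs.{u} := by
  intro G _ _ p _ S₀ E F KE KF zE zF gf oE oF hc1 hc2 xE xF hs
  have hVn : (Vb p G).Normal := ⟨fun v hv g => gf.Vn g v hv⟩
  have hzEK := oE.q8.zK
  have hzFK := oF.q8.zK
  have hzEE : zE ∈ E := oE.q8.KX hzEK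
  have hzFF : zF ∈ F := oF.q8.KX hzFK
  have hzES : zE ∈ S₀ := oE.q8.KS hzEK
  have hzFS : zF ∈ S₀ := oF.q8.KS hzFK
  have hzEN : zE ∈ Subgroup.normalizer (E : Set G) := Subgroup.le_normalizer hzEE
  have hzFN : zF ∈ Subgroup.normalizer (F : Set G) := Subgroup.le_normalizer hzFF
  have hzEi : zE⁻¹ = zE := inv_eq_of_mul_eq_one_left oE.q8.zz
  have hzFi : zF⁻¹ = zF := inv_eq_of_mul_eq_one_left oF.q8.zz
  obtain ⟨QV, hQV⟩ : ∃ QV : Subgroup G, QV = Qb p E ⊔ Vb p G := ⟨_, rfl⟩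
  have hQV' : QV = Qb p F ⊔ Vb p G := by rw [hQV]; exact hs
  obtain ⟨D, hD⟩ : ∃ D : Subgroup G, D = Ab p E ⊔ Ab p F := ⟨_, rfl⟩
  have hDV : D ≤ Vb p G := by rw [hD]; exact sup_le oE.sb.AV oF.sb.AV
  have hVQV : Vb p G ≤ QV := by rw [hQV]; exact le_sup_right
  have hQVP : QV ≤ pCore p G := by rw [hQV]; exact sup_le oE.sb.QP gf.VP
  have hQEQV : Qb p E ≤ QV := by rw [hQV]; exact le_sup_left
  have hQFQV : Qb p F ≤ QV := by rw [hQV']; exact le_sup_left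
  -- normalizers
  have nV : ∀ g : G, g ∈ Subgroup.normalizer ((Vb p G : Subgroup G) : Set G) :=
    fun g => mem_normalizer_of_conj_mem (fun v hv => gf.Vn g v hv)
  have nP : ∀ g : G, g ∈ Subgroup.normalizer ((pCore p G : Subgroup G) : Set G) :=
    fun g => mem_normalizer_of_conj_mem (fun c hc => gf.Pn g c hc)
  have nQVE : zE ∈ Subgroup.normalizer (QV : Set G) := by
    apply mem_normalizer_of_conj_mem
    rw [hQV]
    exact sup_conj_mem' (fun a ha => oE.bf.nQ zE hzEN a ha) (fun b hb => gf.Vn zE b hb)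
  have nQVF : zF ∈ Subgroup.normalizer (QV : Set G) := by
    apply mem_normalizer_of_conj_mem
    rw [hQV']
    exact sup_conj_mem' (fun a ha => oF.bf.nQ zF hzFN a ha) (fun b hb => gf.Vn zF b hb)
  have cEF : ∀ a ∈ Ab p F, zE * a * zE⁻¹ = a := fun a ha => by
    have h1 := hc2 zE hzEK a ha
    rw [h1]; group
  have cFE : ∀ a ∈ Ab p E, zF * a * zF⁻¹ = a := fun a ha => by
    have h1 := hc1 zF hzFK a ha
    rw [h1]; group
  have nDE : zE ∈ Subgroup.normalizer (D : Set G) := by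
    apply mem_normalizer_of_conj_mem
    rw [hD]
    exact sup_conj_mem' (fun a ha => oE.bf.nA zE hzEN a ha)
      (fun b hb => by rw [cEF b hb]; exact hb)
  have nDF : zF ∈ Subgroup.normalizer (D : Set G) := by
    apply mem_normalizer_of_conj_mem
    rw [hD]
    exact sup_conj_mem' (fun a ha => by rw [cFE a ha]; exact ha)
      (fun b hb => oF.bf.nA zF hzFN b hb)
  -- the three levels
  have t1E : zE ∈ trivOn (Vb p G) D :=
    ⟨nV zE, nDE, fun v hv => by rw [hD]; exact Subgroup.mem_sup_left (oE.q8.VA v hv zE hzEE)⟩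
  have t1F : zF ∈ trivOn (Vb p G) D :=
    ⟨nV zF, nDF, fun v hv => by rw [hD]; exact Subgroup.mem_sup_right (oF.q8.VA v hv zF hzFF)⟩
  have t3E : zE ∈ trivOn (pCore p G) QV :=
    ⟨nP zE, nQVE, fun c hc => hQEQV (oE.b1.PXQ zE hzEE c hc)⟩
  have t3F : zF ∈ trivOn (pCore p G) QV :=
    ⟨nP zF, nQVF, fun c hc => hQFQV (oF.b1.PXQ zF hzFF c hc)⟩
  have iE : ∀ m ∈ QV, zE * m * zE⁻¹ * m ∈ Vb p G := by rw [hQV]; exact inv_mod_V gf oE xE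
  have iF : ∀ m ∈ QV, zF * m * zF⁻¹ * m ∈ Vb p G := by rw [hQV']; exact inv_mod_V gf oF xF
  have t2 : zE * zF ∈ trivOn QV (Vb p G) :=
    ⟨Subgroup.mul_mem _ nQVE nQVF, nV _,
      triv_of_inv_inv (fun m hm => conj_mem_of_normalizer nQVF hm) iE iF⟩
  obtain ⟨h, hh⟩ : ∃ h : G, h = (zE * zF) * (zE * zF) := ⟨_, rfl⟩
  have hhS : h ∈ S₀ := by
    rw [hh]; exact S₀.mul_mem (S₀.mul_mem hzES hzFS) (S₀.mul_mem hzES hzFS)
  have hh1 : h ∈ trivOn (Vb p G) D := by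
    rw [hh]
    exact Subgroup.mul_mem _ (Subgroup.mul_mem _ t1E t1F) (Subgroup.mul_mem _ t1E t1F)
  have hh2 : h ∈ trivOn QV (Vb p G) := by rw [hh]; exact Subgroup.mul_mem _ t2 t2
  have hh3 : h ∈ trivOn (pCore p G) QV := by
    rw [hh]
    exact Subgroup.mul_mem _ (Subgroup.mul_mem _ t3E t3F) (Subgroup.mul_mem _ t3E t3F)
  -- `h` centralizes `D`
  have tinv : ∀ a, (a ∈ Ab p E ∨ a ∈ Ab p F) → (zE * zF) * a * (zE * zF)⁻¹ = a⁻¹ := by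
    rintro a (ha | ha)
    · have e : zE * zF * a * (zE * zF)⁻¹ = zE * (zF * a * zF⁻¹) * zE⁻¹ := by group
      rw [e, cFE a ha, oE.q8.invA a ha]
    · have e : zE * zF * a * (zE * zF)⁻¹ = zE * (zF * a * zF⁻¹) * zE⁻¹ := by group
      rw [e, oF.q8.invA a ha, cEF _ (Subgroup.inv_mem _ ha)]
  have hcen0 : ∀ a, (a ∈ Ab p E ∨ a ∈ Ab p F) → h * a = a * h := by
    intro a ha
    have h1 := tinv a ha
    have ha' : a⁻¹ ∈ Ab p E ∨ a⁻¹ ∈ Ab p F := ha.imp (Subgroup.inv_mem _) (Subgroup.inv_mem _)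
    have h2 := tinv a⁻¹ ha'
    rw [inv_inv] at h2
    have e : h * a * h⁻¹ = (zE * zF) * ((zE * zF) * a * (zE * zF)⁻¹) * (zE * zF)⁻¹ := by
      rw [hh]; group
    rw [h1, h2] at e
    calc h * a = h * a * h⁻¹ * h := by group
      _ = a * h := by rw [e]
  have hcenD : ∀ d ∈ D, h * d = d * h := by
    have hle : D ≤ Subgroup.centralizer ({h} : Set G) := by
      rw [hD]
      refine sup_le ?_ ?_
      · intro a ha
        rw [Subgroup.mem_centralizer_iff]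
        intro x hx
        rw [Set.mem_singleton_iff] at hx
        rw [hx]; exact hcen0 a (Or.inl ha)
      · intro a ha
        rw [Subgroup.mem_centralizer_iff]
        intro x hx
        rw [Set.mem_singleton_iff] at hx
        rw [hx]; exact hcen0 a (Or.inr ha)
    intro d hd
    exact Subgroup.mem_centralizer_iff.1 (hle hd) h rfl
  have h2el : ∃ m : ℕ, h ^ (2 ^ m) = 1 := gf.S2 h hhS
  have c1 : ∀ v ∈ Vb p G, h * v = v * h :=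
    coprimeChain (Vb p G) D h (fun v hv => gf.Pp v (gf.VP hv)) h2el hDV hcenD hh1.2.2
  have c2 : ∀ m ∈ QV, h * m = m * h :=
    coprimeChain QV (Vb p G) h (fun m hm => gf.Pp m (hQVP hm)) h2el hVQV c1 hh2.2.2
  have c3 : ∀ c ∈ pCore p G, h * c = c * h :=
    coprimeChain (pCore p G) QV h (fun c hc => gf.Pp c hc) h2el hQVP c2 hh3.2.2
  have hh0 : h = 1 := gf.ST h hhS c3
  have hcomm : zE * zF = zF * zE := by
    rw [hh] at hh0
    have h1 : zE * zF = (zE * zF)⁻¹ := eq_inv_of_mul_eq_one_left hh0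
    rw [h1, mul_inv_rev, hzEi, hzFi]
  -- `z_F` normalizes `Q_E`
  have hb : ∀ u ∈ Qb p E, zF * u * zF⁻¹ ∈ Qb p E := by
    have hle : Qb p E ≤ (Qb p E).comap (MulAut.conj zF).toMonoidHom := by
      nth_rewrite 1 [oE.ZQ]
      rw [Subgroup.closure_le]
      rintro _ ⟨c, hc, rfl⟩
      show zF * (zE * c * zE⁻¹ * c⁻¹) * zF⁻¹ ∈ Qb p E
      have hc' : zF * c * zF⁻¹ ∈ pCore p G := gf.Pn zF c hc
      have e0 : zF * zE * zF⁻¹ = zE := by rw [← hcomm]; group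
      have e : zF * (zE * c * zE⁻¹ * c⁻¹) * zF⁻¹ =
          (zF * zE * zF⁻¹) * (zF * c * zF⁻¹) * (zF * zE * zF⁻¹)⁻¹ * (zF * c * zF⁻¹)⁻¹ := by group
      rw [e, e0, oE.ZQ]
      exact Subgroup.subset_closure ⟨_, hc', rfl⟩
    intro u hu
    exact hle hu
  -- `Z_E ≤ Z_F`
  have hZEF : Zb p E ≤ Zb p F := by
    rw [← xE.exc.comm, Subgroup.commutator_le]
    intro u₁ hu₁ u₂ hu₂
    have m1 : u₁ ∈ Qb p F ⊔ Vb p G := by rw [← hQV']; exact hQEQV hu₁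
    have m2 : u₂ ∈ Qb p F ⊔ Vb p G := by rw [← hQV']; exact hQEQV hu₂
    obtain ⟨y₁, hy₁, v₁, hv₁, rfl⟩ := Subgroup.mem_sup_of_normal_right.1 m1
    obtain ⟨y₂, hy₂, v₂, hv₂, rfl⟩ := Subgroup.mem_sup_of_normal_right.1 m2
    rw [commutatorElement_def,
      comm_central gf.Vc (oF.sb.QP hy₁) (oF.sb.QP hy₂) hv₁ hv₂ (gf.VP hv₂)]
    exact xF.QZ y₁ hy₁ y₂ hy₂
  have hcW : ∀ w ∈ Wb p E, zF * w * zF⁻¹ * w⁻¹ ∈ Zb p E := by
    intro w hw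
    obtain ⟨a, ha, ζ, hζ, rfl⟩ := xE.exc.WAZ w hw
    have h1 : zF * a * zF⁻¹ = a := cFE a ha
    have h2 : zF * ζ * zF⁻¹ = ζ := by
      have h3 := oF.bf.ZC ζ (hZEF hζ) zF hzFF
      rw [← h3]; group
    have e : zF * (a * ζ) * zF⁻¹ * (a * ζ)⁻¹ =
        (zF * a * zF⁻¹) * (zF * ζ * zF⁻¹) * (a * ζ)⁻¹ := by group
    rw [e, h1, h2, mul_inv_cancel]
    exact Subgroup.one_mem _
  have hd : ∀ c ∈ pCore p G, ∀ u ∈ Qb p E,
      (zF * c * zF⁻¹ * c⁻¹) * u * (zF * c * zF⁻¹ * c⁻¹)⁻¹ * u⁻¹ ∈ Zb p E := by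
    intro c hc u hu
    have hdQ : zF * c * zF⁻¹ * c⁻¹ ∈ Qb p E ⊔ Vb p G := by
      rw [← hQV]; exact hQFQV (oF.b1.PXQ zF hzFF c hc)
    obtain ⟨u₁, hu₁, v₁, hv₁, hd⟩ := Subgroup.mem_sup_of_normal_right.1 hdQ
    rw [← hd]
    have h1 := comm_central gf.Vc (oE.sb.QP hu₁) (oE.sb.QP hu) hv₁ (Subgroup.one_mem _)
      (Subgroup.one_mem _) (y₁ := u₁) (y₂ := u) (v₁ := v₁) (v₂ := 1)
    simp only [mul_one] at h1
    rw [h1]
    exact xE.QZ u₁ hu₁ u hu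
  have he : ∀ u ∈ Qb p E, zF * u * zF⁻¹ * u ∈ Wb p E := by
    intro u hu
    apply oE.b1.VQW
    exact ⟨iF u (hQEQV hu), Subgroup.mul_mem _ (hb u hu) hu⟩
  exact xE.noInv zF hzFS hb hcW hd he

end Cfsg.Agent.Lib.Helper23.SnB
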